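import Cfsg.Agent.CompLength.Basic

/-!
The induction: intransitive and imprimitive reductions for the composition length bound.
-/

set_option autoImplicit false

namespace CfsgLib.CompLength

open MulAction

universe u v

/-- the bound `3 c + 4 r ≤ 4 n` -/
def Bnd (G : Type u) [Group G] (n r : ℕ) : Prop := ∃ c, CLe G c ∧ 3 * c + 4 * r ≤ 4 * n

/-- the induction hypothesis below `n` -/
def IH (n : ℕ) : Prop :=
  ∀ m, m < n → ∀ (G : Type u) [Group G] [Finite G] [MulAction G (Fin m)] [FaithfulSMul G (Fin m)],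
    Bnd G m (Nat.card (orbitRel.Quotient G (Fin m)))

theorem le_orbits {G : Type u} [Group G] {Ω : Type v} [MulAction G Ω] [Finite Ω] {α : Type*} (φ : Ω → α)
    (hφ : Function.Surjective φ) (hinv : ∀ (g : G) (x : Ω), φ (g • x) = φ x) :
    Nat.card α ≤ Nat.card (orbitRel.Quotient G Ω) := by
  refine Nat.card_le_card_of_surjective (Quotient.lift φ ?_) ?_
  · rintro a b ⟨g, rfl⟩
    exact hinv g b
  · intro a
    obtain ⟨x, rfl⟩ := hφ a
    exact ⟨Quotient.mk'' x, rfl⟩

theorem smul_mem_orbit_iff {G : Type u} [Group G] {Ω : Type v} [MulAction G Ω] {g : G} {x y : Ω} :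
    g • y ∈ orbit G x ↔ y ∈ orbit G x := by
  constructor
  · rintro ⟨h, hh⟩
    exact ⟨g⁻¹ * h, by simp only at hh ⊢; rw [mul_smul, hh, inv_smul_smul]⟩
  · rintro ⟨h, rfl⟩
    exact ⟨g * h, mul_smul g h x⟩

theorem one_le_orbits (G : Type u) [Group G] (Ω : Type v) [MulAction G Ω] [Finite Ω] [Nonempty Ω] :
    1 ≤ Nat.card (orbitRel.Quotient G Ω) := by
  haveI : Nonempty (orbitRel.Quotient G Ω) := ⟨Quotient.mk'' (Classical.arbitrary Ω)⟩
  exact Nat.card_pos

variable {n : ℕ}

theorem IH.apply (ih : IH.{u} n) (G : Type u) [Group G] [Finite G] (Ω : Type v) [MulAction G Ω]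
    [FaithfulSMul G Ω] [Finite Ω] (hlt : Nat.card Ω < n) {r : ℕ}
    (hr : r ≤ Nat.card (orbitRel.Quotient G Ω)) : Bnd G (Nat.card Ω) r := by
  let e : Ω ≃ Fin (Nat.card Ω) := Finite.equivFin Ω
  letI inst : MulAction G (Fin (Nat.card Ω)) :=
    { smul := fun g i => e (g • e.symm i)
      one_smul := fun i => by show e ((1 : G) • e.symm i) = i; simp
      mul_smul := fun g h i => by
        show e ((g * h) • e.symm i) = e (g • e.symm (e (h • e.symm i)))
        simp [mul_smul] }
  have hsmul : ∀ (g : G) (x : Ω), g • e x = e (g • x) := fun g x => by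
    show e (g • e.symm (e x)) = _
    simp
  haveI : FaithfulSMul G (Fin (Nat.card Ω)) := ⟨fun {g h} hgh => FaithfulSMul.eq_of_smul_eq_smul fun x => by
    have := hgh (e x)
    rw [hsmul, hsmul] at this
    exact e.injective this⟩
  obtain ⟨c, hc, hb⟩ := ih _ hlt G
  refine ⟨c, hc, ?_⟩
  have hcongr : Nat.card (orbitRel.Quotient G Ω) = Nat.card (orbitRel.Quotient G (Fin (Nat.card Ω))) := by
    refine Nat.card_congr (Quotient.congr e fun a b => ?_)
    show orbitRel G Ω a b ↔ orbitRel G _ (e a) (e b)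
    simp only [orbitRel_apply, mem_orbit_iff, hsmul, e.injective.eq_iff]
  omega

/-- bound for the image of an action on a smaller set -/
theorem IH.apply_range (ih : IH.{u} n) {G : Type u} [Group G] [Finite G] (Ω : Type u) [MulAction G Ω]
    [Finite Ω] [Nonempty Ω] (hlt : Nat.card Ω < n) :
    Bnd (G ⧸ (toPermHom G Ω).ker) (Nat.card Ω) 1 := by
  let R := (toPermHom G Ω).range
  letI : MulAction R Ω := MulAction.compHom Ω R.subtype
  haveI : FaithfulSMul R Ω := ⟨fun {g h} hgh => Subtype.ext (Equiv.ext hgh)⟩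
  obtain ⟨c, hc, hb⟩ := ih.apply R Ω hlt (one_le_orbits R Ω)
  exact ⟨c, hc.congr (QuotientGroup.quotientKerEquivRange _).symm, hb⟩

/-- intransitive groups of degree `n` -/
theorem intransitive (ih : IH.{u} n) {G : Type u} [Group G] [Finite G] (Ω : Type u) [MulAction G Ω]
    [FaithfulSMul G Ω] [Finite Ω] (hn : Nat.card Ω = n) (h2 : 2 ≤ Nat.card (orbitRel.Quotient G Ω)) :
    Bnd G n (Nat.card (orbitRel.Quotient G Ω)) := by
  classical
  haveI := Fintype.ofFinite Ω
  obtain ⟨q⟩ : Nonempty (orbitRel.Quotient G Ω) := (Nat.card_pos_iff.1 (by omega)).1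
  obtain ⟨x₀, rfl⟩ := Quotient.mk''_surjective q
  set A := orbit G x₀
  haveI : Nonempty A := ⟨⟨x₀, mem_orbit_self x₀⟩⟩
  have hsum : Nat.card A + Nat.card {y : Ω // y ∉ A} = n := by
    rw [← hn, ← Nat.card_sum]
    exact Nat.card_congr (Equiv.sumCompl fun y => y ∈ A)
  have hne : Nonempty {y : Ω // y ∉ A} := by
    haveI := Finite.one_lt_card_iff_nontrivial.1 h2
    obtain ⟨q, hq⟩ := exists_ne (Quotient.mk'' x₀ : orbitRel.Quotient G Ω)
    obtain ⟨y, rfl⟩ := Quotient.mk''_surjective q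
    exact ⟨⟨y, fun h => hq (Quotient.sound' h)⟩⟩
  have hA : Nat.card A < n := by
    have : 0 < Nat.card {y : Ω // y ∉ A} := Nat.card_pos
    omega
  obtain ⟨cQ, hcQ, hbQ⟩ := ih.apply_range (G := G) A hA
  set K := (toPermHom G A).ker
  letI : MulAction K {y : Ω // y ∉ A} :=
    { smul := fun k y => ⟨(k : G) • (y : Ω), fun h => y.2 (smul_mem_orbit_iff.1 h)⟩
      one_smul := fun y => Subtype.ext (one_smul G (y : Ω))
      mul_smul := fun a b y => Subtype.ext (mul_smul (a : G) b (y : Ω)) }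
  haveI : FaithfulSMul K {y : Ω // y ∉ A} := ⟨fun {a b} hab => Subtype.ext (FaithfulSMul.eq_of_smul_eq_smul fun y => by
    by_cases hy : y ∈ A
    · have ha := congrArg (fun f : Equiv.Perm A => ((f ⟨y, hy⟩ : A) : Ω)) (MonoidHom.mem_ker.1 a.2)
      have hb := congrArg (fun f : Equiv.Perm A => ((f ⟨y, hy⟩ : A) : Ω)) (MonoidHom.mem_ker.1 b.2)
      exact ha.trans hb.symm
    · exact congrArg Subtype.val (hab ⟨y, hy⟩))⟩
  have horb : Nat.card (orbitRel.Quotient G Ω) - 1 ≤ Nat.card (orbitRel.Quotient K {y : Ω // y ∉ A}) := by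
    refine le_trans (le_of_eq ?_) (le_orbits (G := K)
      (α := {q : orbitRel.Quotient G Ω // q ≠ Quotient.mk'' x₀})
      (fun y => ⟨Quotient.mk'' (y : Ω), fun h => y.2 (Quotient.exact' h)⟩) ?_ ?_)
    · haveI := Fintype.ofFinite (orbitRel.Quotient G Ω)
      rw [Nat.card_eq_fintype_card, Nat.card_eq_fintype_card, Fintype.card_subtype_compl, Fintype.card_subtype_eq]
    · rintro ⟨q, hq⟩
      obtain ⟨y, rfl⟩ := Quotient.mk''_surjective q
      exact ⟨⟨y, fun h => hq (Quotient.sound' h)⟩, rfl⟩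
    · intro k y
      refine Subtype.ext (Quotient.sound' ?_)
      exact mem_orbit (y : Ω) (k : G)
  obtain ⟨cK, hcK, hbK⟩ := ih.apply K {y : Ω // y ∉ A}
    (by have : 0 < Nat.card A := Nat.card_pos; omega) horb
  exact ⟨cK + cQ, hcK.ext K hcQ, by omega⟩

/-- imprimitive groups of degree `n` -/
theorem imprimitive (ih : IH.{u} n) {G : Type u} [Group G] [Finite G] (Ω : Type u) [MulAction G Ω]
    [FaithfulSMul G Ω] [Finite Ω] [IsPretransitive G Ω] (hn : Nat.card Ω = n) (a : Ω) {H : Subgroup G}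
    (hSH : stabilizer G a < H) (hH : H ≠ ⊤) : Bnd G n 1 := by
  classical
  choose t ht using fun x : Ω => exists_smul_eq G a x
  let π : Ω → G ⧸ H := fun x => (t x : G ⧸ H)
  have hπ : ∀ g : G, π (g • a) = (g : G ⧸ H) := fun g => by
    refine QuotientGroup.eq.2 (hSH.le ?_)
    rw [mem_stabilizer_iff, mul_smul, inv_smul_eq_iff, ht]
  have hequiv : ∀ (g : G) (x : Ω), π (g • x) = g • π x := fun g x => by
    have h1 : g • x = (g * t x) • a := by rw [mul_smul, ht]
    rw [h1, hπ]
    rfl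
  have hsurj : Function.Surjective π := fun q => by
    obtain ⟨g, rfl⟩ := QuotientGroup.mk_surjective q
    exact ⟨g • a, hπ g⟩
  set m := H.index with hm
  have hmn : m < n := by
    rw [← hn, ← index_stabilizer_of_transitive G a, hm]
    exact Subgroup.index_strictAnti hSH
  have hm2 : 2 ≤ m := Subgroup.one_lt_index_of_ne_top hH
  have hcard : Nat.card (G ⧸ H) = m := (Subgroup.index_eq_card H).symm
  obtain ⟨cQ, hcQ, hbQ⟩ := ih.apply_range (G := G) (G ⧸ H) (by rw [hcard]; exact hmn)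
  set K := (toPermHom G (G ⧸ H)).ker
  have horb : m ≤ Nat.card (orbitRel.Quotient K Ω) := by
    rw [← hcard]
    refine le_orbits π hsurj fun k x => ?_
    show π ((k : G) • x) = π x
    rw [hequiv]
    exact DFunLike.congr_fun (MonoidHom.mem_ker.1 k.2) (π x)
  obtain ⟨cK, hcK, hbK⟩ := intransitive ih (G := K) Ω hn (by omega)
  rw [hcard] at hbQ
  exact ⟨cK + cQ, hcK.ext K hcQ, by omega⟩

end CfsgLib.CompLength
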