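import Mathlib

/-!
Arithmetic for the composition length bound of affine and product groups.
-/

set_option autoImplicit false

namespace CfsgLib.CompLength

open ArithmeticFunction

theorem two_pow_cardFactors_le {s : ℕ} (hs : s ≠ 0) : 2 ^ cardFactors s ≤ s := by
  rw [cardFactors_apply]
  calc 2 ^ s.primeFactorsList.length ≤ s.primeFactorsList.prod :=
        List.pow_card_le_prod _ _ fun x hx => (Nat.prime_of_mem_primeFactorsList hx).two_le
    _ = s := Nat.prod_primeFactorsList hs

theorem cardFactors_of_dvd_5040 {s : ℕ} (hs : s ∣ 5040) (hle : s ≤ 343) : cardFactors s ≤ 6 := by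
  obtain ⟨t, ht⟩ := hs
  have hs0 : s ≠ 0 := by rintro rfl; simp at ht
  have ht0 : t ≠ 0 := by rintro rfl; simp at ht
  have h8 : cardFactors 5040 = 8 := by
    rw [show 5040 = 2 ^ 4 * 3 ^ 2 * 5 * 7 by norm_num, cardFactors_mul (by norm_num) (by norm_num),
      cardFactors_mul (by norm_num) (by norm_num), cardFactors_mul (by norm_num) (by norm_num),
      cardFactors_apply_prime_pow Nat.prime_two, cardFactors_apply_prime_pow Nat.prime_three,
      cardFactors_apply_prime (by norm_num), cardFactors_apply_prime (by norm_num)]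
  rw [ht, cardFactors_mul hs0 ht0] at h8
  by_contra h7
  have ht8 : t ≤ 7 := by
    rcases Nat.lt_or_ge (cardFactors t) 1 with h | h
    · have : t ≤ 1 := by
        by_contra h1
        have := cardFactors_pos_iff_one_lt.2 (show 1 < t by omega)
        omega
      omega
    · have hp : t.Prime := cardFactors_eq_one_iff_prime.1 (by omega)
      have hd : t ∣ 2 ^ 4 * 3 ^ 2 * 5 * 7 := by norm_num; exact ⟨s, by rw [ht, mul_comm]⟩
      rcases hp.dvd_mul.1 hd with h | h
      · rcases hp.dvd_mul.1 h with h | h
        · rcases hp.dvd_mul.1 h with h | h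
          · have := Nat.le_of_dvd two_pos (hp.dvd_of_dvd_pow h); omega
          · have := Nat.le_of_dvd three_pos (hp.dvd_of_dvd_pow h); omega
        · have := Nat.le_of_dvd (by norm_num) h; omega
      · have := Nat.le_of_dvd (by norm_num) h; omega
  nlinarith

/-- the affine inequality -/
theorem affine_arith {p d s : ℕ} (hp : p.Prime) (hd : 1 ≤ d) (hs0 : s ≠ 0) (hle : s ≤ (p ^ d - 1) ^ d)
    (hdvd : s ∣ (p ^ d - 1).factorial) : 3 * (d + cardFactors s) ≤ 4 * (p ^ d - 1) := by
  have hp2 := hp.two_le
  have hpd : 2 ≤ p ^ d := hp2.trans (Nat.le_self_pow (by omega) p)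
  have h2c : 2 ^ cardFactors s ≤ (p ^ d - 1) ^ d := (two_pow_cardFactors_le hs0).trans hle
  rcases hd.eq_or_lt with rfl | hd2
  · rw [pow_one] at hpd h2c ⊢
    rw [pow_one] at h2c
    have := Nat.lt_two_pow_self (n := cardFactors s)
    rcases Nat.lt_or_ge (cardFactors s) 2 with h | h
    · interval_cases cardFactors s <;> omega
    · have h4 : 4 ≤ 2 ^ cardFactors s := (Nat.pow_le_pow_right two_pos h : 2 ^ 2 ≤ _)
      omega
  · set e := Nat.log 2 p with he
    have he1 : 1 ≤ e := Nat.le_log_of_pow_le one_lt_two (by rw [pow_one]; exact hp2)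
    have hpe : 2 ^ e ≤ p := Nat.pow_log_le_self 2 (by omega)
    have hpe' : p < 2 ^ (e + 1) := Nat.lt_pow_succ_log_self one_lt_two p
    have hc : cardFactors s < d * d * (e + 1) := by
      refine (Nat.pow_lt_pow_iff_right one_lt_two).1 (h2c.trans_lt ?_)
      calc (p ^ d - 1) ^ d < (p ^ d) ^ d := Nat.pow_lt_pow_left (by omega) (by omega)
        _ ≤ ((2 ^ (e + 1)) ^ d) ^ d := Nat.pow_le_pow_left (Nat.pow_le_pow_left hpe'.le d) d
        _ = 2 ^ (d * d * (e + 1)) := by rw [← pow_mul, ← pow_mul]; congr 1; ring
    rcases hp2.eq_or_lt with rfl | hp3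
    · have he' : e = 1 := by
        have : 2 ^ e ≤ 2 ^ 1 := by rw [pow_one]; exact hpe
        have := (Nat.pow_le_pow_iff_right one_lt_two).1 this
        omega
      rw [he'] at hc
      have hc2 : cardFactors s < d * d := by
        refine (Nat.pow_lt_pow_iff_right one_lt_two).1 (h2c.trans_lt ?_)
        calc (2 ^ d - 1) ^ d < (2 ^ d) ^ d := Nat.pow_lt_pow_left (by omega) (by omega)
          _ = 2 ^ (d * d) := by rw [← pow_mul]
      by_cases h4 : 4 ≤ d
      · have key : ∀ m, 4 ≤ m → 3 * m * m + 3 * m ≤ 4 * 2 ^ m - 4 := by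
          intro m hm
          induction m, hm using Nat.le_induction with
          | base => norm_num
          | succ m hm ih =>
            have : 16 ≤ 2 ^ m := (Nat.pow_le_pow_right two_pos hm : 2 ^ 4 ≤ _)
            rw [pow_succ]
            have : 6 * m + 6 ≤ 3 * m * m + 3 * m := by nlinarith
            ring_nf at *
            omega
        have h := key d h4
        have hc3 : 3 * cardFactors s + 3 ≤ 3 * d * d := by rw [mul_assoc]; omega
        omega
      · obtain rfl | rfl : d = 2 ∨ d = 3 := by omega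
        · have : s ∣ 6 := by simpa [Nat.factorial] using hdvd
          have hs6 : s ≤ 6 := Nat.le_of_dvd (by norm_num) this
          have h3 : 2 ^ cardFactors s ≤ 6 := (two_pow_cardFactors_le hs0).trans hs6
          have : cardFactors s < 3 := by
            by_contra h
            have := (Nat.pow_le_pow_right two_pos (not_lt.1 h) : 2 ^ 3 ≤ _)
            omega
          omega
        · have : cardFactors s ≤ 6 := cardFactors_of_dvd_5040
            (by simpa [Nat.factorial] using hdvd) (by simpa using hle)
          omega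
    · have key : ∀ m, 2 ≤ m → 3 * (m * m * (e + 1)) + 3 * m ≤ 4 * p ^ m - 1 := by
        intro m hm
        induction m, hm using Nat.le_induction with
        | base =>
          have h1 : e < 2 ^ e := Nat.lt_two_pow_self
          have h2 : 3 * p ≤ p ^ 2 := by rw [pow_two]; exact Nat.mul_le_mul_right _ hp3
          rcases Nat.lt_or_ge e 2 with h | h
          · have : e = 1 := by omega
            have : 3 ^ 2 ≤ p ^ 2 := Nat.pow_le_pow_left hp3 2
            subst_vars
            omega
          · have : (2 ^ e) ^ 2 ≤ p ^ 2 := Nat.pow_le_pow_left hpe 2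
            have : 4 ≤ 2 ^ e := (Nat.pow_le_pow_right two_pos h : 2 ^ 2 ≤ _)
            have : 4 * 2 ^ e ≤ (2 ^ e) ^ 2 := by rw [pow_two]; exact Nat.mul_le_mul_right _ this
            omega
        | succ m hm ih =>
          have hle3 : 3 * p ^ m ≤ p ^ (m + 1) := by
            rw [pow_succ, mul_comm 3]; exact Nat.mul_le_mul_left _ hp3
          have hpos : 0 < p ^ m := pow_pos hp.pos m
          have : (m + 1) * (m + 1) * (e + 1) ≤ 3 * (m * m * (e + 1)) := by
            rw [← mul_assoc]
            exact Nat.mul_le_mul_right _ (by nlinarith)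
          omega
      have := key d hd2
      omega

theorem product_arith {t k n : ℕ} (ht : 9 ≤ t) (hk : 3 ≤ k) (hn : t ^ k ≤ n * n) : k * t ≤ n := by
  refine (Nat.mul_self_le_mul_self_iff).1 (le_trans ?_ hn)
  obtain ⟨j, rfl⟩ : ∃ j, k = j + 2 := ⟨k - 2, by omega⟩
  have key : ∀ j, 1 ≤ j → (j + 2) * (j + 2) ≤ 9 ^ j := by
    intro j hj
    induction j, hj using Nat.le_induction with
    | base => norm_num
    | succ j hj ih => rw [pow_succ]; nlinarith
  calc (j + 2) * t * ((j + 2) * t) = (j + 2) * (j + 2) * (t * t) := by ring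
    _ ≤ 9 ^ j * (t * t) := Nat.mul_le_mul_right _ (key j (by omega))
    _ ≤ t ^ j * (t * t) := Nat.mul_le_mul_right _ (Nat.pow_le_pow_left ht j)
    _ = t ^ (j + 2) := by ring

theorem mul_le_pow {m k : ℕ} (hm : 2 ≤ m) (hk : 1 ≤ k) : k * m ≤ m ^ k := by
  induction k, hk using Nat.le_induction with
  | base => simp
  | succ k hk ih =>
    rw [pow_succ]
    have h1 : k + 1 ≤ k * m := by nlinarith
    exact (Nat.mul_le_mul_right m h1).trans (Nat.mul_le_mul_right m ih)

end CfsgLib.CompLength
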