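import Mathlib

/-!
Upper bounds for the length of subnormal chains (composition length).
-/

set_option autoImplicit false

namespace CfsgLib.CompLength

open Subgroup

universe u v

/-- `SubChain A l`: there is a strictly increasing subnormal chain of length `l` from `⊥` to `A`. -/
inductive SubChain {G : Type u} [Group G] : Subgroup G → ℕ → Prop
  | base : SubChain ⊥ 0
  | step {A B : Subgroup G} {l : ℕ} : SubChain A l → A < B → (A.subgroupOf B).Normal → SubChain B (l + 1)

/-- the composition length of `G` is at most `c` -/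
def CLe (G : Type u) [Group G] (c : ℕ) : Prop := ∀ l, SubChain (⊤ : Subgroup G) l → l ≤ c

variable {G : Type u} [Group G]

theorem normal_in_iff {A B : Subgroup G} :
    (A.subgroupOf B).Normal ↔ ∀ a ∈ A, a ∈ B → ∀ b ∈ B, b * a * b⁻¹ ∈ A :=
  ⟨fun h a ha haB b hb => h.conj_mem ⟨a, haB⟩ ha ⟨b, hb⟩,
    fun h => ⟨fun a ha b => h a ha a.2 b b.2⟩⟩

theorem CLe.mono {c d : ℕ} (h : CLe G c) (hcd : c ≤ d) : CLe G d := fun l hl => (h l hl).trans hcd

theorem subChain_split (N : Subgroup G) [N.Normal] {A : Subgroup G} {l : ℕ} (h : SubChain A l) :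
    ∃ a b, SubChain (A.subgroupOf N) a ∧ SubChain (A.map (QuotientGroup.mk' N)) b ∧ l ≤ a + b := by
  induction h with
  | base => exact ⟨0, 0, by rw [bot_subgroupOf]; exact .base, by rw [Subgroup.map_bot]; exact .base, le_rfl⟩
  | @step A B l _ hAB hn ih =>
    obtain ⟨a, b, ha, hb, hl⟩ := ih
    have hle₁ : A.subgroupOf N ≤ B.subgroupOf N := fun x hx => hAB.le hx
    have hle₂ : A.map (QuotientGroup.mk' N) ≤ B.map (QuotientGroup.mk' N) := map_mono hAB.le
    have hn' := normal_in_iff.1 hn
    have h₁ : A.subgroupOf N < B.subgroupOf N → SubChain (B.subgroupOf N) (a + 1) := fun h =>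
      .step ha h (normal_in_iff.2 fun x hx hxB y hy => hn' x hx hxB y hy)
    have h₂ : A.map (QuotientGroup.mk' N) < B.map (QuotientGroup.mk' N) →
        SubChain (B.map (QuotientGroup.mk' N)) (b + 1) := fun h =>
      .step hb h (normal_in_iff.2 fun x hx _ y hy => by
        obtain ⟨x, hx, rfl⟩ := hx
        obtain ⟨y, hy, rfl⟩ := hy
        exact ⟨y * x * y⁻¹, hn' x hx (hAB.le hx) y hy, by simp⟩)
    rcases hle₁.lt_or_eq with e₁ | e₁ <;> rcases hle₂.lt_or_eq with e₂ | e₂
    · exact ⟨_, _, h₁ e₁, h₂ e₂, by omega⟩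
    · exact ⟨_, b, h₁ e₁, e₂ ▸ hb, by omega⟩
    · exact ⟨a, _, e₁ ▸ ha, h₂ e₂, by omega⟩
    · exfalso
      refine hAB.ne (le_antisymm hAB.le fun x hx => ?_)
      have hxm : QuotientGroup.mk' N x ∈ A.map (QuotientGroup.mk' N) := e₂ ▸ mem_map_of_mem _ hx
      obtain ⟨y, hy, hyx⟩ := hxm
      have hN : y⁻¹ * x ∈ N := QuotientGroup.eq.1 hyx
      have hA : (⟨y⁻¹ * x, hN⟩ : N) ∈ A.subgroupOf N := by
        rw [e₁]
        exact B.mul_mem (B.inv_mem (hAB.le hy)) hx
      have := A.mul_mem hy hA
      simpa using this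

/-- `c(G) ≤ c(N) + c(G/N)` -/
theorem CLe.ext (N : Subgroup G) [N.Normal] {a b : ℕ} (hN : CLe N a) (hQ : CLe (G ⧸ N) b) : CLe G (a + b) := by
  intro l hl
  obtain ⟨a', b', ha, hb, hle⟩ := subChain_split N hl
  rw [top_subgroupOf] at ha
  rw [Subgroup.map_top_of_surjective _ (QuotientGroup.mk'_surjective N)] at hb
  have := hN a' ha
  have := hQ b' hb
  omega

theorem SubChain.comap {Q : Type v} [Group Q] {f : G →* Q} (hf : Function.Surjective f) {B : Subgroup Q} {l : ℕ}
    (h : SubChain B l) :
    (f.ker = ⊥ → SubChain (B.comap f) l) ∧ (f.ker ≠ ⊥ → SubChain (B.comap f) (l + 1)) := by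
  induction h with
  | base =>
    rw [MonoidHom.comap_bot]
    refine ⟨fun h => h ▸ .base, fun h => .step .base (bot_lt_iff_ne_bot.2 h) ?_⟩
    rw [bot_subgroupOf]; infer_instance
  | @step A B l _ hAB hn ih =>
    have hn' : ((A.comap f).subgroupOf (B.comap f)).Normal :=
      normal_in_iff.2 fun a ha haB b hb => by
        simpa using normal_in_iff.1 hn (f a) ha haB (f b) hb
    have hlt : A.comap f < B.comap f := (Subgroup.comap_lt_comap_of_surjective hf).2 hAB
    exact ⟨fun h => .step (ih.1 h) hlt hn', fun h => .step (ih.2 h) hlt hn'⟩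

theorem CLe.of_surjective {Q : Type v} [Group Q] {f : G →* Q} (hf : Function.Surjective f) {c : ℕ}
    (h : CLe G c) : CLe Q c := by
  intro l hl
  have := hl.comap hf
  rw [Subgroup.comap_top] at this
  by_cases hk : f.ker = ⊥
  · exact h l (this.1 hk)
  · exact (Nat.le_succ l).trans (h _ (this.2 hk))

theorem CLe.of_surjective_of_ker {Q : Type v} [Group Q] {f : G →* Q} (hf : Function.Surjective f)
    (hk : f.ker ≠ ⊥) {c : ℕ} (h : CLe G c) : CLe Q (c - 1) := by
  intro l hl
  have := hl.comap hf
  rw [Subgroup.comap_top] at this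
  have := h _ (this.2 hk)
  omega

theorem CLe.congr {H : Type v} [Group H] (e : G ≃* H) {c : ℕ} (h : CLe G c) : CLe H c :=
  h.of_surjective (f := e.toMonoidHom) e.surjective

theorem CLe.simple [IsSimpleGroup G] : CLe G 1 := by
  have key : ∀ (A : Subgroup G) l, SubChain A l → (A = ⊤ → l ≤ 1) ∧ (A = ⊥ → l = 0) := by
    intro A l h
    induction h with
    | base => exact ⟨fun _ => Nat.zero_le _, fun _ => rfl⟩
    | @step A B l _ hAB hn ih =>
      refine ⟨fun hB => ?_, fun hB => absurd (hB ▸ hAB) not_lt_bot⟩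
      subst hB
      have : A.Normal := ⟨fun a ha g => normal_in_iff.1 hn a ha (mem_top a) g (mem_top g)⟩
      rcases IsSimpleGroup.eq_bot_or_eq_top_of_normal A this with h | h
      · rw [ih.2 h]
      · exact absurd h hAB.ne
  exact fun l hl => (key _ l hl).1 rfl

theorem subChain_le_cardFactors [Finite G] {A : Subgroup G} {l : ℕ} (h : SubChain A l) :
    l ≤ ArithmeticFunction.cardFactors (Nat.card A) := by
  induction h with
  | base => simp
  | @step A B l _ hAB _ ih =>
    have h1 := (A.subgroupOf B).card_mul_index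
    rw [Nat.card_congr (subgroupOfEquivOfLe hAB.le).toEquiv] at h1
    have h2 : (A.subgroupOf B).index ≠ 1 := by
      rw [Ne, index_eq_one, subgroupOf_eq_top]
      exact hAB.not_ge
    have h3 : (A.subgroupOf B).index ≠ 0 := index_ne_zero_of_finite
    rw [← h1, ArithmeticFunction.cardFactors_mul Nat.card_pos.ne' h3]
    have h4 : 0 < ArithmeticFunction.cardFactors (A.subgroupOf B).index :=
      ArithmeticFunction.cardFactors_pos_iff_one_lt.2 (by omega)
    omega

theorem CLe.cardFactors [Finite G] : CLe G (ArithmeticFunction.cardFactors (Nat.card G)) := fun l hl => by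
  simpa [Nat.card_congr topEquiv.toEquiv] using subChain_le_cardFactors hl

theorem CLe.of_subsingleton [Subsingleton G] : CLe G 0 := by
  intro l hl
  generalize hA : (⊤ : Subgroup G) = A at hl
  cases hl with
  | base => exact le_rfl
  | step h hAB _ => exact absurd (Subsingleton.elim _ _) hAB.ne

theorem subChain_of_fin : ∀ (l : ℕ) (H : Fin (l + 1) → Subgroup G), H 0 = ⊥ →
    (∀ i : Fin l, H i.castSucc < H i.succ ∧ ((H i.castSucc).subgroupOf (H i.succ)).Normal) →
    ∀ i : Fin (l + 1), SubChain (H i) i := by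
  intro l H h0 h i
  induction i using Fin.induction with
  | zero => rw [h0]; exact .base
  | succ i ih => exact .step ih (h i).1 (h i).2

end CfsgLib.CompLength
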