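import Mathlib
import Cfsg.Agent.MinNormal.Factors
import Cfsg.Agent.CompLength.Basic

/-!
Tools for minimal normal subgroups: generators of elementary abelian groups, subdirect subgroups of
products of simple groups.
-/

set_option autoImplicit false

namespace CfsgLib.CompLength

open Subgroup

universe u

/-- A group of order `p^d` has `d` nonidentity generators. -/
theorem exists_generators {N : Type u} [Group N] [Finite N] {p d : ℕ} (hp : p.Prime) (hN : Nat.card N = p ^ d)
    (hd : 1 ≤ d) : ∃ g : Fin d → {x : N // x ≠ 1}, closure (Set.range fun i => (g i : N)) = ⊤ := by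
  haveI : Nontrivial N := Finite.one_lt_card_iff_nontrivial.1 (hN ▸ Nat.one_lt_pow (by omega) hp.one_lt)
  suffices h : ∀ j, ∃ g : Fin j → {x : N // x ≠ 1},
      p ^ j ≤ Nat.card (closure (Set.range fun i => (g i : N))) ∨ closure (Set.range fun i => (g i : N)) = ⊤ by
    obtain ⟨g, hg⟩ := h d
    refine ⟨g, hg.elim (fun hg => ?_) id⟩
    exact Subgroup.eq_top_of_le_card _ (hN.le.trans hg)
  intro j
  induction j with
  | zero => exact ⟨Fin.elim0, Or.inl (by rw [pow_zero]; exact Nat.card_pos)⟩
  | succ j ih =>
    obtain ⟨g, hg⟩ := ih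
    set A := closure (Set.range fun i => (g i : N)) with hA
    by_cases htop : A = ⊤
    · obtain ⟨x, hx⟩ := exists_ne (1 : N)
      refine ⟨Fin.snoc g ⟨x, hx⟩, Or.inr (top_le_iff.1 (htop.ge.trans (closure_mono ?_)))⟩
      rintro _ ⟨i, rfl⟩
      exact ⟨i.castSucc, by simp⟩
    · obtain ⟨x, hx⟩ : ∃ x, x ∉ A := by
        by_contra h
        push Not at h
        exact htop ((eq_top_iff' A).2 h)
      have hx1 : x ≠ 1 := fun h => hx (h ▸ one_mem A)
      refine ⟨Fin.snoc g ⟨x, hx1⟩, Or.inl ?_⟩
      set B := closure (Set.range fun i => ((Fin.snoc g ⟨x, hx1⟩ : Fin (j + 1) → {x : N // x ≠ 1}) i : N))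
      have hle : A ≤ B := closure_mono (by rintro _ ⟨i, rfl⟩; exact ⟨i.castSucc, by simp⟩)
      have hxB : x ∈ B := subset_closure ⟨Fin.last j, by simp⟩
      have hlt : Nat.card A < Nat.card B := by
        by_contra h
        exact hx ((Subgroup.eq_of_le_of_card_ge hle (not_lt.1 h)).symm ▸ hxB)
      obtain ⟨i, -, hi⟩ := (Nat.dvd_prime_pow hp).1 (hN ▸ Subgroup.card_subgroup_dvd_card A)
      obtain ⟨i', -, hi'⟩ := (Nat.dvd_prime_pow hp).1 (hN ▸ Subgroup.card_subgroup_dvd_card B)
      rw [hi, hi'] at hlt
      have hij : j ≤ i := (Nat.pow_le_pow_iff_right hp.one_lt).1 (hi ▸ hg.resolve_right htop)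
      have hii : i < i' := (Nat.pow_lt_pow_iff_right hp.one_lt).1 hlt
      rw [hi']
      exact Nat.pow_le_pow_right hp.pos (by omega)

/-- A subdirect subgroup of `T_1 × … × T_k` (simple, nonabelian) meeting each factor trivially has order at most
`|T|^(k/2)`. -/
theorem subdirect_card_le {ι : Type} [Fintype ι] {T : ι → Type u} [∀ i, Group (T i)] [∀ i, Finite (T i)]
    (hsimp : ∀ i, IsSimpleGroup (T i)) (hnab : ∀ i, ¬ IsMulCommutative (T i)) {t : ℕ}
    (ht : ∀ i, Nat.card (T i) = t) (H : Subgroup (∀ i, T i))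
    (hsurj : ∀ i (x : T i), ∃ h ∈ H, h i = x)
    (hmeet : ∀ h ∈ H, ∀ i, (∀ j, j ≠ i → h j = 1) → h = 1) :
    Nat.card H * Nat.card H ≤ t ^ Fintype.card ι := by
  classical
  let π : ∀ i, H →* T i := fun i => (Pi.evalMonoidHom T i).comp H.subtype
  have hπ : ∀ i, Function.Surjective (π i) := fun i x => by
    obtain ⟨h, hh, rfl⟩ := hsurj i x
    exact ⟨⟨h, hh⟩, rfl⟩
  have hidx : ∀ i, (π i).ker.index = t := fun i => by
    rw [index_ker, MonoidHom.range_eq_top.2 (hπ i), Nat.card_congr topEquiv.toEquiv, ht]
  have hpart : ∀ i, ∃ j, j ≠ i ∧ (π j).ker = (π i).ker := by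
    intro i
    haveI := hsimp i
    by_contra hcon
    push Not at hcon
    have hfull : ∀ s : Finset ι, i ∉ s → ((⨅ j ∈ s, (π j).ker).map (π i)) = ⊤ := by
      intro s hs
      induction s using Finset.induction with
      | empty => simpa using Subgroup.map_top_of_surjective _ (hπ i)
      | @insert a s has ih =>
        rw [Finset.mem_insert, not_or] at hs
        have hXn : ((π a).ker.map (π i)).Normal := Subgroup.Normal.map inferInstance _ (hπ i)
        have hX : (π a).ker.map (π i) = ⊤ := by
          rcases IsSimpleGroup.eq_bot_or_eq_top_of_normal _ hXn with h | h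
          · rw [Subgroup.map_eq_bot_iff] at h
            exfalso
            refine hcon a (fun e => hs.1 e.symm) (Subgroup.eq_of_le_of_card_ge h ?_)
            have h1 := (π a).ker.card_mul_index
            have h2 := (π i).ker.card_mul_index
            rw [hidx] at h1 h2
            exact le_of_eq (Nat.eq_of_mul_eq_mul_right (Nat.pos_of_ne_zero (hidx i ▸ index_ne_zero_of_finite)) (h2.trans h1.symm))
          · exact h
        rw [Finset.iInf_insert]
        haveI hYn : (⨅ j ∈ s, (π j).ker).Normal := by
          refine Subgroup.normal_iInf_normal fun j => Subgroup.normal_iInf_normal fun _ => inferInstance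
        have hcomm : commutator (T i) ≤ ((π a).ker ⊓ ⨅ j ∈ s, (π j).ker).map (π i) := by
          rw [commutator_def, ← ih hs.2]
          nth_rewrite 1 [ih hs.2, ← hX]
          rw [← Subgroup.map_commutator]
          exact Subgroup.map_mono (le_inf (Subgroup.commutator_le_left _ _) (Subgroup.commutator_le_right _ _))
        refine top_le_iff.1 (le_trans (le_of_eq ?_) hcomm)
        rcases IsSimpleGroup.eq_bot_or_eq_top_of_normal (commutator (T i)) inferInstance with h | h
        · refine absurd ⟨⟨fun x y => ?_⟩⟩ (hnab i)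
          have := Subgroup.commutator_mem_commutator (Subgroup.mem_top x) (Subgroup.mem_top y)
          rw [← commutator_def, h, Subgroup.mem_bot] at this
          exact commutatorElement_eq_one_iff_mul_comm.1 this
        · exact h.symm
    have h := hfull (Finset.univ.erase i) (by simp)
    obtain ⟨x, hx⟩ : ∃ x : T i, x ≠ 1 := by
      haveI := (hsimp i).toNontrivial
      exact exists_ne 1
    obtain ⟨⟨y, hy⟩, hym, hyx⟩ : x ∈ (⨅ j ∈ Finset.univ.erase i, (π j).ker).map (π i) := h ▸ mem_top x
    have : y = 1 := hmeet y hy i fun j hj => by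
      have := (Subgroup.mem_iInf.1 ((Subgroup.mem_iInf.1 hym) j)) (by simp [hj])
      exact this
    subst this
    exact hx hyx.symm
  let D : Finset (Subgroup H) := Finset.univ.image fun i => (π i).ker
  have hD : 2 * D.card ≤ Fintype.card ι := by
    rw [← Finset.card_univ, Finset.card_eq_sum_card_image (fun i => (π i).ker) Finset.univ, mul_comm]
    refine Finset.card_nsmul_le_sum D _ 2 fun K hK => ?_
    obtain ⟨i, -, rfl⟩ := Finset.mem_image.1 hK
    obtain ⟨j, hj, hjk⟩ := hpart i
    exact Finset.one_lt_card.2 ⟨i, by simp, j, by simp [hjk], hj.symm⟩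
  let F : H → (K : D) → H ⧸ (K : Subgroup H) := fun h K => (h : H ⧸ (K : Subgroup H))
  have hF : Function.Injective F := fun a b hab => by
    refine Subtype.ext (funext fun i => ?_)
    have h1 := congrFun hab ⟨(π i).ker, Finset.mem_image_of_mem _ (Finset.mem_univ i)⟩
    have h2 : a⁻¹ * b ∈ (π i).ker := QuotientGroup.eq.1 h1
    rw [MonoidHom.mem_ker, map_mul, map_inv, inv_mul_eq_one] at h2
    exact h2
  have hcard : Nat.card H ≤ t ^ D.card := by
    refine le_trans (Nat.card_le_card_of_injective F hF) (le_of_eq ?_)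
    rw [Nat.card_pi, Finset.prod_congr rfl (g := fun _ => t) ?_, Finset.prod_const, Finset.card_univ, Fintype.card_coe]
    intro K _
    obtain ⟨i, -, hi⟩ := Finset.mem_image.1 K.2
    rw [← Subgroup.index_eq_card, ← hi, hidx]
  rcases Nat.eq_zero_or_pos t with ht0 | ht0
  · rcases isEmpty_or_nonempty ι with hι | ⟨⟨i⟩⟩
    · haveI : Subsingleton H := ⟨fun a b => Subtype.ext (funext fun i => isEmptyElim i)⟩
      rw [Nat.card_eq_one_iff_unique.2 ⟨(inferInstance : Subsingleton H), ⟨1⟩⟩, Fintype.card_eq_zero]
      simp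
    · have := ht i; have := Nat.card_pos (α := T i); omega
  calc Nat.card H * Nat.card H ≤ t ^ D.card * t ^ D.card := Nat.mul_le_mul hcard hcard
    _ = t ^ (2 * D.card) := by rw [two_mul, pow_add]
    _ ≤ t ^ Fintype.card ι := Nat.pow_le_pow_right ht0 hD

/-- a nonabelian simple group has at least 9 elements -/
theorem nine_le_card (T : Type u) [Group T] [Finite T] [IsSimpleGroup T] (hnab : ¬ IsMulCommutative T) :
    9 ≤ Nat.card T := by
  by_contra h
  have hpg : ∀ p, p.Prime → ∀ k, Nat.card T = p ^ k → False := fun p hp k hk => by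
    haveI := Fact.mk hp
    haveI := (IsPGroup.of_card hk).center_nontrivial
    rcases IsSimpleGroup.eq_bot_or_eq_top_of_normal (center T) inferInstance with h | h
    · exact (Subgroup.nontrivial_iff_ne_bot _).1 inferInstance h
    · exact hnab ⟨⟨fun a b => mem_center_iff.1 (h ▸ mem_top b) a⟩⟩
  have h1 : 1 < Nat.card T := Finite.one_lt_card
  have h6 : Nat.card T ≠ 6 := fun h6 => by
    haveI := Fact.mk Nat.prime_three
    obtain ⟨x, hx⟩ := exists_prime_orderOf_dvd_card' (G := T) 3 (h6 ▸ by norm_num)
    have hi := (zpowers x).card_mul_index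
    rw [Nat.card_zpowers, hx, h6] at hi
    have hn := Subgroup.normal_of_index_eq_two (H := zpowers x) (by omega)
    rcases IsSimpleGroup.eq_bot_or_eq_top_of_normal _ hn with h | h
    · rw [zpowers_eq_bot.1 h, orderOf_one] at hx; omega
    · have := congrArg Subgroup.index h
      rw [index_top] at this; omega
  obtain hc | hc | hc | hc | hc | hc | hc : Nat.card T = 2 ∨ Nat.card T = 3 ∨ Nat.card T = 4 ∨ Nat.card T = 5 ∨
      Nat.card T = 6 ∨ Nat.card T = 7 ∨ Nat.card T = 8 := by omega
  · exact hpg 2 Nat.prime_two 1 (by rw [hc]; norm_num)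
  · exact hpg 3 Nat.prime_three 1 (by rw [hc]; norm_num)
  · exact hpg 2 Nat.prime_two 2 (by rw [hc]; norm_num)
  · exact hpg 5 (by norm_num) 1 (by rw [hc]; norm_num)
  · exact h6 hc
  · exact hpg 7 (by norm_num) 1 (by rw [hc]; norm_num)
  · exact hpg 2 Nat.prime_two 3 (by rw [hc]; norm_num)

/-- composition length of a product of simple groups -/
theorem cle_pi : ∀ (k : ℕ) (T : Fin k → Type u) [∀ i, Group (T i)], (∀ i, IsSimpleGroup (T i)) →
    CLe (∀ i, T i) k := by
  intro k
  induction k with
  | zero => intro T _ _; exact CLe.of_subsingleton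
  | succ k ih =>
    intro T _ hT
    let f : (∀ i, T i) →* T 0 := Pi.evalMonoidHom T 0
    have hf : Function.Surjective f := fun x => ⟨Function.update 1 0 x, by simp [f]⟩
    let e : (∀ i : Fin k, T i.succ) ≃* f.ker :=
      { toFun := fun g => ⟨Fin.cons 1 g, rfl⟩
        invFun := fun g i => (g : ∀ i, T i) i.succ
        left_inv := fun g => funext fun i => by simp
        right_inv := fun g => Subtype.ext (funext fun i => by
          refine Fin.cases ?_ (fun j => ?_) i
          · simpa [f] using (MonoidHom.mem_ker.1 g.2).symm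
          · simp)
        map_mul' := fun a b => Subtype.ext (funext fun i => by
          refine Fin.cases ?_ (fun j => ?_) i <;> simp) }
    haveI := hT 0
    have h1 : CLe f.ker k := (ih _ fun i => hT i.succ).congr e
    have h2 : CLe ((∀ i, T i) ⧸ f.ker) 1 :=
      (CLe.simple (G := T 0)).congr (QuotientGroup.quotientKerEquivOfSurjective f hf).symm
    exact h1.ext f.ker h2

end CfsgLib.CompLength
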