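import Cfsg.Agent.CompLength.Action
import Cfsg.Agent.CompLength.Arith
import Cfsg.Agent.CompLength.Factors

/-!
The primitive case and the conclusion of the composition length bound `3 c ≤ 4 (n - r)`.
-/

set_option autoImplicit false

namespace CfsgLib.CompLength

open MulAction Subgroup

universe u

variable {n : ℕ} {G : Type u} [Group G] [Finite G] {Ω : Type u} [MulAction G Ω] [FaithfulSMul G Ω] [Finite Ω]
  [IsPretransitive G Ω] (a : Ω)

local notation "Sa" => stabilizer G a

omit [Finite G] [Finite Ω] in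
/-- a normal subgroup fixing `a` is trivial -/
theorem eq_bot_of_normal_le_stab (M : Subgroup G) [M.Normal] (h : M ≤ stabilizer G a) : M = ⊥ := by
  refine (eq_bot_iff_forall M).2 fun x hx => FaithfulSMul.eq_of_smul_eq_smul (α := Ω) fun y => ?_
  obtain ⟨g, rfl⟩ := exists_smul_eq G a y
  have : g⁻¹ * x * g ∈ stabilizer G a := h (by
    have := Subgroup.Normal.conj_mem ‹M.Normal› x hx g⁻¹
    rwa [inv_inv] at this)
  rw [mem_stabilizer_iff, mul_smul, mul_smul, inv_smul_eq_iff] at this
  rw [one_smul]
  exact this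

/-- bound on the point stabiliser -/
theorem stab_bound (ih : IH.{u} n) (hn : Nat.card Ω = n) (h2 : 2 ≤ n) :
    Bnd (stabilizer G a) (n - 1) 1 := by
  classical
  haveI := Fintype.ofFinite Ω
  let W := {x : Ω // x ≠ a}
  letI : MulAction (stabilizer G a) W :=
    { smul := fun s x => ⟨(s : G) • (x : Ω), fun h => x.2 (by
        have := congrArg ((s : G)⁻¹ • ·) h
        simp only [inv_smul_smul] at this
        rw [this, inv_smul_eq_iff]
        exact s.2.symm)⟩
      one_smul := fun x => Subtype.ext (one_smul G (x : Ω))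
      mul_smul := fun s t x => Subtype.ext (mul_smul (s : G) t (x : Ω)) }
  haveI : FaithfulSMul (stabilizer G a) W := ⟨fun {s t} hst => Subtype.ext (FaithfulSMul.eq_of_smul_eq_smul fun y => by
    by_cases hy : y = a
    · rw [hy]; exact s.2.trans t.2.symm
    · exact congrArg Subtype.val (hst ⟨y, hy⟩))⟩
  have hW : Nat.card W = n - 1 := by
    rw [← hn, Nat.card_eq_fintype_card, Nat.card_eq_fintype_card, Fintype.card_subtype_compl, Fintype.card_subtype_eq]
  haveI : Nonempty W := (Nat.card_pos_iff.1 (by omega)).1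
  have := ih.apply (stabilizer G a) W (by omega) (one_le_orbits (stabilizer G a) W)
  rwa [hW] at this

/-- primitive groups of degree `n` -/
theorem primitive (ih : IH.{u} n) (hn : Nat.card Ω = n) (h2 : 2 ≤ n)
    (hmax : ∀ H : Subgroup G, stabilizer G a < H → H = ⊤) : Bnd G n 1 := by
  classical
  obtain ⟨cS, hcS, hbS⟩ := stab_bound (G := G) a ih hn h2
  haveI : Nontrivial G := by
    by_contra h
    rw [not_nontrivial_iff_subsingleton] at h
    have hidx := index_stabilizer_of_transitive (G := G) a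
    rw [hn, Subsingleton.elim (stabilizer G a) ⊤, index_top] at hidx
    omega
  obtain ⟨N, ⟨hNn, hN1⟩, hNmin⟩ := Set.Finite.exists_minimal
    (s := {M : Subgroup G | M.Normal ∧ M ≠ ⊥}) (Set.toFinite _) ⟨⊤, inferInstance, top_ne_bot⟩
  have hmin : ∀ M : Subgroup G, M.Normal → M ≤ N → M = ⊥ ∨ M = N := fun M hM hle =>
    (em (M = ⊥)).imp id fun h => le_antisymm hle (hNmin ⟨hM, h⟩ hle)
  haveI := hNn
  have hNS : ¬ N ≤ stabilizer G a := fun h => hN1 (eq_bot_of_normal_le_stab a N h)
  have htop : N ⊔ stabilizer G a = ⊤ := hmax _ (lt_of_le_of_ne le_sup_right fun h => hNS (h ▸ le_sup_left))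
  have hdec : ∀ g : G, ∃ m ∈ N, ∃ s ∈ stabilizer G a, g = m * s := by
    intro g
    have hg : g ∈ ((N ⊔ stabilizer G a : Subgroup G) : Set G) := by rw [htop]; trivial
    obtain ⟨m, hm, s, hs, rfl⟩ := Subgroup.mem_sup_of_normal_left.1 hg
    exact ⟨m, hm, s, hs, rfl⟩
  haveI : IsPretransitive N Ω := ⟨fun x y => by
    obtain ⟨g, rfl⟩ := exists_smul_eq G a x
    obtain ⟨g', rfl⟩ := exists_smul_eq G a y
    obtain ⟨m, hm, s, hs, rfl⟩ := hdec g
    obtain ⟨m', hm', s', hs', rfl⟩ := hdec g'
    refine ⟨⟨m' * m⁻¹, mul_mem hm' (inv_mem hm)⟩, ?_⟩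
    show (m' * m⁻¹) • (m * s) • a = (m' * s') • a
    rw [mul_smul m s, mem_stabilizer_iff.1 hs, mul_smul m' s', mem_stabilizer_iff.1 hs', mul_smul,
      inv_smul_smul]⟩
  have hNidx : (stabilizer N a).index = n := by rw [index_stabilizer_of_transitive, hn]
  -- the map `S → G/N`
  let ψ : stabilizer G a →* G ⧸ N := (QuotientGroup.mk' N).comp (stabilizer G a).subtype
  have hψ : Function.Surjective ψ := fun q => by
    obtain ⟨g, rfl⟩ := QuotientGroup.mk_surjective q
    obtain ⟨m, hm, s, hs, rfl⟩ := hdec g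
    refine ⟨⟨s, hs⟩, QuotientGroup.eq.2 ?_⟩
    show s⁻¹ * (m * s) ∈ N
    have := Subgroup.Normal.conj_mem hNn m hm s⁻¹
    rwa [inv_inv, mul_assoc] at this
  by_cases hab : IsMulCommutative N
  · -- affine case
    have hNc : ∀ x ∈ N, ∀ y ∈ N, x * y = y * x := fun x hx y hy =>
      congrArg Subtype.val (hab.is_comm.comm (⟨x, hx⟩ : N) ⟨y, hy⟩)
    have hfix : ∀ x : G, (∀ m ∈ N, x * m = m * x) → x • a = a → x = 1 := by
      intro x hx hxa
      refine FaithfulSMul.eq_of_smul_eq_smul (α := Ω) fun y => ?_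
      obtain ⟨⟨m, hm⟩, rfl⟩ := exists_smul_eq N a y
      show x • m • a = (1 : G) • m • a
      rw [one_smul, smul_smul, hx m hm, mul_smul, hxa]
    have hstab : stabilizer N a = ⊥ := (eq_bot_iff_forall _).2 fun x hx =>
      Subtype.ext (hfix x (fun m hm => hNc _ x.2 m hm) hx)
    have hcardN : Nat.card N = n := by rw [← hNidx, hstab, index_bot]
    obtain ⟨p, hp, hpd⟩ := Nat.exists_prime_and_dvd (n := Nat.card N) (by omega)
    haveI := Fact.mk hp
    let M : Subgroup G :=
      { carrier := {x | x ∈ N ∧ x ^ p = 1}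
        one_mem' := ⟨one_mem N, one_pow p⟩
        mul_mem' := fun {x y} hx hy => ⟨mul_mem hx.1 hy.1, by
          rw [(show Commute x y from hNc x hx.1 y hy.1).mul_pow, hx.2, hy.2, one_mul]⟩
        inv_mem' := fun {x} hx => ⟨inv_mem hx.1, by rw [inv_pow, hx.2, inv_one]⟩ }
    have hMn : M.Normal := ⟨fun x hx g => ⟨hNn.conj_mem x hx.1 g, by
      rw [conj_pow, hx.2, mul_one, mul_inv_cancel]⟩⟩
    have hMN : M = N := by
      refine (hmin M hMn fun x hx => hx.1).resolve_left fun h => ?_
      obtain ⟨⟨x, hx⟩, hxo⟩ := exists_prime_orderOf_dvd_card' (G := N) p hpd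
      rw [Subgroup.orderOf_mk] at hxo
      have : x ∈ (⊥ : Subgroup G) := h ▸ (⟨hx, hxo ▸ pow_orderOf_eq_one x⟩ : x ∈ M)
      rw [mem_bot.1 this, orderOf_one] at hxo
      exact hp.ne_one hxo.symm
    have hpN : IsPGroup p N := fun x => ⟨1, Subtype.ext (by
      have : (x : G) ∈ M := hMN.symm ▸ x.2
      show (x : G) ^ p ^ 1 = 1
      rw [pow_one]; exact this.2)⟩
    obtain ⟨d, hd⟩ := IsPGroup.iff_card.1 hpN
    have hd1 : 1 ≤ d := Nat.one_le_iff_ne_zero.2 fun h => by rw [h, pow_zero] at hd; omega
    obtain ⟨gen, hgen⟩ := exists_generators hp hd hd1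
    let F : stabilizer G a → Fin d → {x : N // x ≠ 1} := fun s i =>
      ⟨⟨(s : G) * ((gen i : N) : G) * (s : G)⁻¹, hNn.conj_mem _ (gen i : N).2 s⟩, fun h => (gen i).2 (Subtype.ext (by
        have h' : (s : G) * ((gen i : N) : G) * (s : G)⁻¹ = 1 := congrArg Subtype.val h
        exact conj_eq_one_iff.1 h'))⟩
    have hF : Function.Injective F := by
      intro s t hst
      have hcom : ∀ i, ((t : G)⁻¹ * s) * ((gen i : N) : G) = ((gen i : N) : G) * ((t : G)⁻¹ * s) := fun i => by
        have h1 : (s : G) * ((gen i : N) : G) * (s : G)⁻¹ = (t : G) * ((gen i : N) : G) * (t : G)⁻¹ :=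
          congrArg (fun f : Fin d → {x : N // x ≠ 1} => (((f i : {x : N // x ≠ 1}) : N) : G)) hst
        calc ((t : G)⁻¹ * s) * ((gen i : N) : G)
            = (t : G)⁻¹ * ((s : G) * ((gen i : N) : G) * (s : G)⁻¹) * (s : G) := by group
          _ = _ := by rw [h1]; group
      have hall : ∀ m : N, ((t : G)⁻¹ * s) * (m : G) = (m : G) * ((t : G)⁻¹ * s) := by
        intro m
        have hm : m ∈ closure (Set.range fun i => (gen i : N)) := hgen ▸ mem_top m
        have : (m : G) ∈ centralizer ({(t : G)⁻¹ * s} : Set G) := by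
          refine (closure_le (K := (centralizer ({(t : G)⁻¹ * s} : Set G)).comap N.subtype)).2 ?_ hm
          rintro _ ⟨i, rfl⟩
          exact mem_centralizer_singleton_iff.2 (hcom i).symm
        exact (mem_centralizer_singleton_iff.1 this).symm
      have := hfix _ (fun m hm => hall ⟨m, hm⟩) (mem_stabilizer_iff.1 ((t⁻¹ * s : stabilizer G a)).2)
      exact (Subtype.ext (inv_mul_eq_one.1 this)).symm
    have hle : Nat.card (stabilizer G a) ≤ (p ^ d - 1) ^ d := by
      refine (Nat.card_le_card_of_injective F hF).trans (le_of_eq ?_)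
      haveI := Fintype.ofFinite N
      rw [Nat.card_fun, Nat.card_eq_fintype_card (α := {x : N // x ≠ 1}), Fintype.card_subtype_compl,
        Fintype.card_subtype_eq, ← Nat.card_eq_fintype_card, hd, Nat.card_fin]
    have hdvd : Nat.card (stabilizer G a) ∣ (p ^ d - 1).factorial := by
      haveI := Fintype.ofFinite Ω
      let W := {x : Ω // x ≠ a}
      have hfa : ∀ (s : stabilizer G a) (x : Ω), x ≠ a ↔ (s : G) • x ≠ a := fun s x => by
        rw [not_iff_not]
        constructor
        · rintro rfl; exact s.2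
        · intro h
          exact MulAction.injective (s : G) (h.trans s.2.symm)
      let σ : stabilizer G a →* Equiv.Perm W :=
        { toFun := fun s => (MulAction.toPerm (s : G)).subtypeEquiv (hfa s)
          map_one' := Equiv.ext fun x => Subtype.ext (one_smul G (x : Ω))
          map_mul' := fun s t => Equiv.ext fun x => Subtype.ext (mul_smul (s : G) t (x : Ω)) }
      have hσ : Function.Injective σ := fun s t hst => Subtype.ext (FaithfulSMul.eq_of_smul_eq_smul (α := Ω) fun y => by
        by_cases hy : y = a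
        · rw [hy]; exact s.2.trans t.2.symm
        · exact congrArg (fun f : Equiv.Perm W => ((f ⟨y, hy⟩ : W) : Ω)) hst)
      refine (Subgroup.card_dvd_of_injective σ hσ).trans (dvd_of_eq ?_)
      rw [Nat.card_perm, ← hd, hcardN, ← hn, Nat.card_eq_fintype_card, Nat.card_eq_fintype_card,
        Fintype.card_subtype_compl, Fintype.card_subtype_eq]
    have key := affine_arith hp hd1 Nat.card_pos.ne' hle hdvd
    have hcN : CLe N d := by
      have h := CLe.cardFactors (G := N)
      rwa [hd, ArithmeticFunction.cardFactors_apply_prime_pow hp] at h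
    have hcQ := (CLe.cardFactors (G := stabilizer G a)).of_surjective hψ
    refine ⟨_, hcN.ext N hcQ, ?_⟩
    rw [← hcardN, hd]
    omega
  -- non-abelian case
  obtain ⟨k, T, hk, hTN, hTn, hTs, hTconj, hTcomm, hTind, hTsup⟩ := MinNormal.exists_factors N hN1 hmin
  let φ : (∀ i, T i) →* G := Subgroup.noncommPiCoprod hTcomm
  have hφinj : Function.Injective φ := Subgroup.injective_noncommPiCoprod_of_iSupIndep (hcomm := hTcomm) hTind
  have hφrange : φ.range = N := Subgroup.noncommPiCoprod_range.trans hTsup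
  let e : (∀ i, T i) ≃* N := (MonoidHom.ofInjective hφinj).trans (MulEquiv.subgroupCongr hφrange)
  have hcN : CLe N k := (cle_pi k (fun i => T i) hTs).congr e
  by_cases hk1 : k = 1
  · refine ⟨k + cS, hcN.ext N (hcS.of_surjective hψ), ?_⟩
    omega
  have hψker : (∃ x ∈ N, x ≠ 1 ∧ x • a = a) → ψ.ker ≠ ⊥ := by
    rintro ⟨x, hxN, hx1, hxa⟩ hb
    have : (⟨x, hxa⟩ : stabilizer G a) ∈ ψ.ker := (QuotientGroup.eq_one_iff x).2 hxN
    rw [hb, Subgroup.mem_bot] at this
    exact hx1 (congrArg Subtype.val this)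
  have hfixN : ∀ x : G, (∀ i, ∀ t ∈ T i, x * t = t * x) → x • a = a → x = 1 := by
    intro x hx hxa
    refine FaithfulSMul.eq_of_smul_eq_smul (α := Ω) fun y => ?_
    obtain ⟨⟨m, hm⟩, rfl⟩ := exists_smul_eq N a y
    show x • m • a = (1 : G) • m • a
    have hle : N ≤ centralizer ({x} : Set G) := by
      rw [← hTsup]
      exact iSup_le fun i t ht => mem_centralizer_singleton_iff.2 (hx i t ht).symm
    rw [one_smul, smul_smul, ← mem_centralizer_singleton_iff.1 (hle hm), mul_smul, hxa]
  have hnab : ∀ i, ¬ IsMulCommutative (T i) := by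
    intro i hi
    refine hab ⟨⟨fun x y => ?_⟩⟩
    have hall : ∀ j, IsMulCommutative (T j) := fun j => by
      obtain ⟨h, hh⟩ := hTconj i j
      rw [← hh]
      refine ⟨⟨fun u v => ?_⟩⟩
      obtain ⟨u', hu', hu⟩ := u.2
      obtain ⟨v', hv', hv⟩ := v.2
      refine Subtype.ext ?_
      show (u : G) * v = v * u
      rw [← hu, ← hv, ← map_mul, ← map_mul]
      exact congrArg _ (congrArg Subtype.val (hi.is_comm.comm (⟨u', hu'⟩ : T i) ⟨v', hv'⟩))
    obtain ⟨u, rfl⟩ := e.surjective x
    obtain ⟨v, rfl⟩ := e.surjective y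
    rw [← map_mul, ← map_mul]
    congr 1
    funext j
    exact (hall j).is_comm.comm _ _
  -- coordinates
  have hφsingle : ∀ i (t : T i), φ (Pi.mulSingle i t) = (t : G) := fun i t =>
    Subgroup.noncommPiCoprod_mulSingle i t
  have hcoord : ∀ (v : ∀ i, T i) (i : Fin k) (t : T i),
      φ v * (t : G) * (φ v)⁻¹ = (v i : G) * (t : G) * (v i : G)⁻¹ := by
    intro v i t
    rw [← hφsingle i t, ← map_inv, ← map_mul, ← map_mul]
    have : v * Pi.mulSingle i t * v⁻¹ = Pi.mulSingle i (v i * t * (v i)⁻¹) := by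
      funext j
      by_cases hj : j = i
      · subst hj; simp
      · simp [hj]
    rw [this, hφsingle, hφsingle]
    rfl
  -- G permutes the factors
  have hperm : ∀ (g : G) (i : Fin k), ∃ j, (T i).map (MulAut.conj g).toMonoidHom = T j := by
    intro g i
    set A := (T i).map (MulAut.conj g).toMonoidHom with hA
    have hAN : A ≤ N := by
      rintro _ ⟨x, hx, rfl⟩
      exact hNn.conj_mem x (hTN i hx) g
    have hAn : N ≤ Subgroup.normalizer (A : Set G) := by
      refine MinNormal.le_normalizer_of_conj ?_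
      rintro m hm _ ⟨x, hx, rfl⟩
      have hm' : g⁻¹ * m * g ∈ N := by simpa using hNn.conj_mem m hm g⁻¹
      exact ⟨(g⁻¹ * m * g) * x * (g⁻¹ * m * g)⁻¹, (Subgroup.mem_normalizer_iff.1 (hTn i hm') x).1 hx,
        by simp [mul_assoc]⟩
    let eA : T i ≃* A := (T i).equivMapOfInjective _ (MulAut.conj g).injective
    haveI := hTs i
    haveI hAs : IsSimpleGroup A := eA.isSimpleGroup_congr.1 inferInstance
    by_contra hcon
    push Not at hcon
    have hcent : ∀ j, ∀ x ∈ A, ∀ y ∈ T j, x * y = y * x := by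
      intro j x hx y hy
      haveI := hTs j
      have h1 : ((A ⊓ T j).subgroupOf A).Normal := normal_in_iff.2 fun z hz hzA w hw =>
        ⟨A.mul_mem (A.mul_mem hw hzA) (A.inv_mem hw),
          (Subgroup.mem_normalizer_iff.1 (hTn j (hAN hw)) z).1 hz.2⟩
      have h2 : ((A ⊓ T j).subgroupOf (T j)).Normal := normal_in_iff.2 fun z hz hzT w hw =>
        ⟨(Subgroup.mem_normalizer_iff.1 (hAn (hTN j hw)) z).1 hz.1,
          (T j).mul_mem ((T j).mul_mem hw hzT) ((T j).inv_mem hw)⟩
      have hbot : A ⊓ T j = ⊥ := by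
        rcases IsSimpleGroup.eq_bot_or_eq_top_of_normal _ h1 with h | h
        · rwa [subgroupOf_eq_bot, disjoint_iff, inf_assoc, inf_comm (T j) A, ← inf_assoc, inf_idem] at h
        · rw [subgroupOf_eq_top] at h
          rcases IsSimpleGroup.eq_bot_or_eq_top_of_normal _ h2 with h' | h'
          · rwa [subgroupOf_eq_bot, disjoint_iff, inf_assoc, inf_idem] at h'
          · rw [subgroupOf_eq_top] at h'
            exact absurd (le_antisymm (h.trans inf_le_right) (h'.trans inf_le_left)) (hcon j)
      have hmem : x * y * x⁻¹ * y⁻¹ ∈ A ⊓ T j := ⟨by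
          rw [mul_assoc x y, mul_assoc x]
          exact A.mul_mem hx ((Subgroup.mem_normalizer_iff.1 (hAn (hTN j hy)) x⁻¹).1 (A.inv_mem hx)),
        (T j).mul_mem ((Subgroup.mem_normalizer_iff.1 (hTn j (hAN hx)) y).1 hy) ((T j).inv_mem hy)⟩
      rw [hbot, Subgroup.mem_bot, ← commutatorElement_def, commutatorElement_eq_one_iff_mul_comm] at hmem
      exact hmem
    refine hnab i ⟨⟨fun u v => eA.injective ?_⟩⟩
    rw [map_mul, map_mul]
    refine Subtype.ext ?_
    have hle : N ≤ centralizer ({((eA u : A) : G)} : Set G) := by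
      rw [← hTsup]
      exact iSup_le fun j y hy => mem_centralizer_singleton_iff.2 (hcent j _ (eA u).2 y hy).symm
    exact (mem_centralizer_singleton_iff.1 (hle (hAN (eA v).2))).symm
  let L : Subgroup G := ⨅ i, Subgroup.normalizer (T i : Set G)
  have hmemL : ∀ g, g ∈ L ↔ ∀ i, (T i).map (MulAut.conj g).toMonoidHom = T i := by
    intro g
    simp only [L, Subgroup.mem_iInf]
    refine forall_congr' fun i => ?_
    constructor
    · intro h
      refine Subgroup.eq_of_le_of_card_ge ?_ (by rw [Subgroup.card_map_of_injective (MulAut.conj g).injective])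
      rintro _ ⟨x, hx, rfl⟩
      exact (Subgroup.mem_normalizer_iff.1 h x).1 hx
    · intro h
      exact Subgroup.mem_normalizer_fintype fun x hx => h ▸ ⟨x, hx, rfl⟩
  have hNL : N ≤ L := le_iInf fun i => hTn i
  -- action on the factors
  choose σ hσ using hperm
  have hTinj : Function.Injective T := by
    intro i j hij
    by_contra hne
    have h1 := hTind.pairwiseDisjoint hne
    rw [Function.onFun, hij, disjoint_self] at h1
    haveI := (hTs j).toNontrivial
    exact (Subgroup.nontrivial_iff_ne_bot _).1 inferInstance h1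
  have hcomp : ∀ g h i, ((T i).map (MulAut.conj h).toMonoidHom).map (MulAut.conj g).toMonoidHom =
      (T i).map (MulAut.conj (g * h)).toMonoidHom := fun g h i => by
    rw [Subgroup.map_map]; congr 1; ext x; simp [mul_assoc]
  have hone : ∀ i, (T i).map (MulAut.conj (1 : G)).toMonoidHom = T i := fun i => by ext x; simp
  letI : MulAction G (ULift.{u} (Fin k)) :=
    { smul := fun g i => ⟨σ g i.down⟩
      one_smul := fun i => ULift.ext _ _ (hTinj (by show T (σ 1 i.down) = T i.down; rw [← hσ]; exact hone _))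
      mul_smul := fun g h i => ULift.ext _ _ (hTinj (by
        show T (σ (g * h) i.down) = T (σ g (σ h i.down))
        rw [← hσ, ← hσ g, ← hσ h, hcomp])) }
  have hkerL : (toPermHom G (ULift.{u} (Fin k))).ker = L := by
    ext g
    rw [MonoidHom.mem_ker, hmemL]
    constructor
    · intro h i
      have h' : (⟨σ g i⟩ : ULift.{u} (Fin k)) = ⟨i⟩ := congrArg (fun f : Equiv.Perm _ => f ⟨i⟩) h
      rw [hσ, ULift.up.inj h']
    · intro h
      exact Equiv.ext fun i => ULift.ext _ _ (hTinj (by show T (σ g i.down) = T i.down; rw [← hσ]; exact h _))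
  haveI : IsPretransitive G (ULift.{u} (Fin k)) := ⟨fun i j => by
    obtain ⟨g, hg⟩ := hTconj i.down j.down
    exact ⟨g, ULift.ext _ _ (hTinj (by show T (σ g i.down) = T j.down; rw [← hσ]; exact hg))⟩⟩
  let π : ∀ i : Fin k, N → T i := fun i x => (e.symm x) i
  have hπ : ∀ i (x : N) (t : T i), (x : G) * (t : G) * (x : G)⁻¹ = (π i x : G) * t * (π i x : G)⁻¹ := by
    intro i x t
    have : φ (e.symm x) = (x : G) := congrArg Subtype.val (e.apply_symm_apply x)
    rw [← this]
    exact hcoord _ i t
  let R : ∀ i, Subgroup (T i) := fun i =>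
    ((stabilizer N a).comap e.toMonoidHom).map (Pi.evalMonoidHom (fun i => T i) i)
  have hcardT : ∀ i j, Nat.card (T i) = Nat.card (T j) := fun i j => by
    obtain ⟨h, hh⟩ := hTconj i j
    rw [← hh, Subgroup.card_map_of_injective (MulAut.conj h).injective]
  let i₀ : Fin k := ⟨0, hk⟩
  -- the finishing step
  have finish : ∀ (m : ℕ) (Q : ∀ i, Subgroup (T i)), 2 ≤ m → k * m ≤ n → (∀ i, (Q i).index = m) →
      (∀ g : G, g • a = a → g ∈ L → ∀ i (t : T i), t ∈ Q i → ∀ t' : T i,
        (t' : G) = g * t * g⁻¹ → t' ∈ Q i) → Bnd G n 1 := by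
    intro m Q hm hkm hQ hinv
    haveI : Nonempty (ULift.{u} (Fin k)) := ⟨⟨i₀⟩⟩
    obtain ⟨cQ, hcQ, hbQ⟩ := ih.apply_range (G := G) (ULift.{u} (Fin k))
      (by rw [Nat.card_ulift, Nat.card_fin]; nlinarith)
    haveI hLn : L.Normal := hkerL ▸ inferInstance
    have hcQ' : CLe (G ⧸ L) cQ := hcQ.congr (QuotientGroup.quotientMulEquivOfEq hkerL)
    rw [Nat.card_ulift, Nat.card_fin] at hbQ
    let SL := stabilizer L a
    have hQtop : ∀ i, Q i ≠ ⊤ := fun i h => by
      have := hQ i
      rw [h, index_top] at this; omega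
    -- action of SL on the nontrivial cosets
    have hcore : ∀ i, (Q i).normalCore = ⊥ := fun i => by
      haveI := hTs i
      rcases IsSimpleGroup.eq_bot_or_eq_top_of_normal _ (Q i).normalCore_normal with h | h
      · exact h
      · exact absurd (top_le_iff.1 (h ▸ (Q i).normalCore_le)) (hQtop i)
    have hnorm : ∀ (s : SL) i, ∀ t : T i, ((s : L) : G) * (t : G) * ((s : L) : G)⁻¹ ∈ T i := fun s i t =>
      (Subgroup.mem_normalizer_iff.1 ((Subgroup.mem_iInf.1 (s : L).2) i) _).1 t.2
    let act : SL → ∀ i, T i → T i := fun s i t => ⟨_, hnorm s i t⟩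
    have hact_mul : ∀ s i (x y : T i), act s i (x * y) = act s i x * act s i y := fun s i x y =>
      Subtype.ext (by simp only [act, Subgroup.coe_mul]; group)
    have hact_inv : ∀ s i (x : T i), act s i x⁻¹ = (act s i x)⁻¹ := fun s i x =>
      Subtype.ext (by simp only [act, Subgroup.coe_inv]; group)
    have hactQ : ∀ s i (x : T i), x ∈ Q i → act s i x ∈ Q i := fun s i x hx =>
      hinv _ s.2 (s : L).2 i x hx _ rfl
    have hact_comp : ∀ s s' i (x : T i), act (s * s') i x = act s i (act s' i x) := fun s s' i x =>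
      Subtype.ext (by simp only [act, Subgroup.coe_mul]; group)
    have hact_one : ∀ i (x : T i), act 1 i x = x := fun i x => Subtype.ext (by simp [act])
    let W := Σ i : Fin k, {q : T i ⧸ Q i // q ≠ ((1 : T i) : T i ⧸ Q i)}
    let sm : SL → ∀ i, T i ⧸ Q i → T i ⧸ Q i := fun s i => Quotient.lift (fun t => ((act s i t : T i) : T i ⧸ Q i))
      (fun x y hxy => by
        refine QuotientGroup.eq.2 ?_
        rw [← hact_inv, ← hact_mul]
        exact hactQ _ _ _ (QuotientGroup.leftRel_apply.1 hxy))
    have hsm_comp : ∀ s s' i (q : T i ⧸ Q i), sm (s * s') i q = sm s i (sm s' i q) := fun s s' i q => by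
      induction q using QuotientGroup.induction_on with
      | H t => exact congrArg (QuotientGroup.mk) (hact_comp s s' i t)
    have hsm_one : ∀ i (q : T i ⧸ Q i), sm 1 i q = q := fun i q => by
      induction q using QuotientGroup.induction_on with
      | H t => exact congrArg (QuotientGroup.mk) (hact_one i t)
    have hsm1 : ∀ s i, sm s i ((1 : T i) : T i ⧸ Q i) = ((1 : T i) : T i ⧸ Q i) := fun s i =>
      congrArg (QuotientGroup.mk) (Subtype.ext (by simp [act]) : act s i 1 = 1)
    letI : MulAction SL W :=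
      { smul := fun s w => ⟨w.1, sm s w.1 w.2.1, fun h => w.2.2 (by
          have := congrArg (sm s⁻¹ w.1) h
          rwa [← hsm_comp, inv_mul_cancel, hsm_one, hsm1] at this)⟩
        one_smul := fun w => by
          obtain ⟨i, q, hq⟩ := w
          exact Sigma.ext rfl (heq_of_eq (Subtype.ext (hsm_one i q)))
        mul_smul := fun s s' w => by
          obtain ⟨i, q, hq⟩ := w
          exact Sigma.ext rfl (heq_of_eq (Subtype.ext (hsm_comp s s' i q))) }
    haveI : FaithfulSMul SL W := by
      refine ⟨fun {s s'} hss => ?_⟩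
      suffices hone : ∀ u : SL, (∀ w : W, u • w = w) → u = 1 by
        have := hone (s'⁻¹ * s) fun w => by rw [mul_smul, hss w, inv_smul_smul]
        exact (inv_mul_eq_one.1 this).symm
      intro u hu
      have hall : ∀ i (t : T i), t⁻¹ * act u i t ∈ Q i := by
        intro i t
        by_cases h : ((t : T i) : T i ⧸ Q i) = ((1 : T i) : T i ⧸ Q i)
        · have ht : t ∈ Q i := by
            have := QuotientGroup.eq.1 h.symm
            rwa [inv_one, one_mul] at this
          exact mul_mem (inv_mem ht) (hactQ u i t ht)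
        · have := hu ⟨i, _, h⟩
          have h' : sm u i (t : T i ⧸ Q i) = (t : T i ⧸ Q i) := by
            have h2 := eq_of_heq (Sigma.ext_iff.1 this).2
            exact congrArg Subtype.val h2
          exact QuotientGroup.eq.1 h'.symm
      have htriv : ∀ i (t : T i), act u i t = t := by
        intro i t
        have hmem : t⁻¹ * act u i t ∈ (Q i).normalCore := by
          intro v
          have h1 := hall i (t * v⁻¹)
          have h2 := hall i v⁻¹
          rw [hact_mul, mul_inv_rev, inv_inv] at h1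
          have := mul_mem h1 (inv_mem h2)
          rw [mul_inv_rev, inv_inv] at this
          have e : v * t⁻¹ * (act u i t * act u i v⁻¹) * ((act u i v⁻¹)⁻¹ * v⁻¹) = v * (t⁻¹ * act u i t) * v⁻¹ := by
            group
          rwa [e] at this
        rw [hcore, Subgroup.mem_bot, inv_mul_eq_one] at hmem
        exact hmem.symm
      refine Subtype.ext (Subtype.ext (hfixN _ (fun i t ht => ?_) u.2))
      have h1 : ((u : L) : G) * t * ((u : L) : G)⁻¹ = t := congrArg Subtype.val (htriv i ⟨t, ht⟩)
      exact mul_inv_eq_iff_eq_mul.1 h1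
    have hW : Nat.card W = k * (m - 1) := by
      haveI : ∀ i, Fintype (T i ⧸ Q i) := fun i => Fintype.ofFinite _
      rw [Nat.card_sigma, Finset.sum_congr rfl (g := fun _ => m - 1) ?_, Finset.sum_const, Finset.card_univ,
        Fintype.card_fin, smul_eq_mul]
      intro i _
      rw [Nat.card_eq_fintype_card, Fintype.card_subtype_compl, Fintype.card_subtype_eq,
        ← Nat.card_eq_fintype_card, ← Subgroup.index_eq_card, hQ]
    have hWlt : Nat.card W < n := by
      have : k * (m - 1) + k = k * m := by rw [← Nat.mul_succ, Nat.succ_eq_add_one, Nat.sub_add_cancel (by omega)]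
      omega
    have horb : k ≤ Nat.card (orbitRel.Quotient SL W) := by
      have hne : ∀ i, ∃ q : T i ⧸ Q i, q ≠ ((1 : T i) : T i ⧸ Q i) := fun i => by
        haveI : Nontrivial (T i ⧸ Q i) := Finite.one_lt_card_iff_nontrivial.1 (by rw [← Subgroup.index_eq_card, hQ]; omega)
        exact exists_ne _
      have := le_orbits (G := SL) (fun w : W => w.1) (fun i => ⟨⟨i, (hne i).choose, (hne i).choose_spec⟩, rfl⟩)
        (fun s w => rfl)
      rwa [Nat.card_fin] at this
    obtain ⟨cW, hcW, hbW⟩ := ih.apply SL W hWlt horb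
    let χ : SL →* L ⧸ N.subgroupOf L := (QuotientGroup.mk' (N.subgroupOf L)).comp SL.subtype
    have hχ : Function.Surjective χ := fun q => by
      obtain ⟨g, rfl⟩ := QuotientGroup.mk_surjective q
      obtain ⟨x, hx, s, hs, hg⟩ := hdec (g : G)
      have hsL : s ∈ L := by
        have : s = x⁻¹ * (g : G) := by rw [hg]; group
        rw [this]; exact mul_mem (inv_mem (hNL hx)) g.2
      refine ⟨⟨⟨s, hsL⟩, hs⟩, QuotientGroup.eq.2 ?_⟩
      show (s⁻¹ * (g : G)) ∈ N
      rw [hg]
      have := hNn.conj_mem x hx s⁻¹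
      rwa [inv_inv, mul_assoc] at this
    have hcNL : CLe (N.subgroupOf L) k := hcN.congr (subgroupOfEquivOfLe hNL).symm
    have hcL := hcNL.ext (N.subgroupOf L) (hcW.of_surjective hχ)
    refine ⟨_, hcL.ext L hcQ', ?_⟩
    rw [hW] at hbW
    have : k * (m - 1) + k = k * m := by rw [← Nat.mul_succ, Nat.succ_eq_add_one, Nat.sub_add_cancel (by omega)]
    omega
  -- images of the stabiliser
  have hidx : Nat.card N = n * Nat.card (stabilizer N a) := by
    rw [← hNidx, mul_comm, Subgroup.card_mul_index]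
  have hNcard : Nat.card N = Nat.card (T i₀) ^ k := by
    rw [← Nat.card_congr e.toEquiv, Nat.card_pi, Finset.prod_congr rfl (g := fun _ => Nat.card (T i₀)) fun i _ => hcardT i i₀,
      Finset.prod_const, Finset.card_univ, Fintype.card_fin]
  have hRmove : ∀ (g : G), g • a = a → ∀ i j, (T i).map (MulAut.conj g).toMonoidHom = T j →
      ∀ t : T i, t ∈ R i → ∀ t' : T j, (t' : G) = g * t * g⁻¹ → t' ∈ R j := by
    rintro g hga i j hij _ ⟨v, hv, rfl⟩ t' ht'
    have hxN : g * ((e v : N) : G) * g⁻¹ ∈ N := hNn.conj_mem _ (e v).2 g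
    refine ⟨e.symm ⟨_, hxN⟩, ?_, ?_⟩
    · show e (e.symm ⟨_, hxN⟩) ∈ stabilizer N a
      rw [MulEquiv.apply_symm_apply, mem_stabilizer_iff]
      show (g * ((e v : N) : G) * g⁻¹) • a = a
      rw [mul_smul, mul_smul, (inv_smul_eq_iff.2 hga.symm : g⁻¹ • a = a)]
      rw [show ((e v : N) : G) • a = a from hv, hga]
    · -- the coordinates agree
      show (e.symm ⟨_, hxN⟩) j = t'
      haveI := hTs j
      refine Subtype.ext ?_
      have key : ∀ y : T j, ((e.symm ⟨_, hxN⟩) j : G) * y * ((e.symm ⟨_, hxN⟩) j : G)⁻¹ = (t' : G) * y * (t' : G)⁻¹ := by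
        intro y
        obtain ⟨y₀, hy₀, hy⟩ : (y : G) ∈ (T i).map (MulAut.conj g).toMonoidHom := hij.symm ▸ y.2
        have hy' : (y : G) = g * y₀ * g⁻¹ := hy.symm
        have h1 := hπ j ⟨_, hxN⟩ y
        have h2 := hπ i (e v) ⟨y₀, hy₀⟩
        simp only [π, MulEquiv.symm_apply_apply] at h1 h2
        rw [← h1, ht', hy']
        show g * ((e v : N) : G) * g⁻¹ * (g * y₀ * g⁻¹) * (g * ((e v : N) : G) * g⁻¹)⁻¹ =
          g * (v i : G) * g⁻¹ * (g * y₀ * g⁻¹) * (g * (v i : G) * g⁻¹)⁻¹
        calc g * ((e v : N) : G) * g⁻¹ * (g * y₀ * g⁻¹) * (g * ((e v : N) : G) * g⁻¹)⁻¹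
            = g * (((e v : N) : G) * y₀ * ((e v : N) : G)⁻¹) * g⁻¹ := by group
          _ = g * ((v i : G) * y₀ * (v i : G)⁻¹) * g⁻¹ := by rw [h2]
          _ = _ := by group
      have hz : t'⁻¹ * (e.symm ⟨_, hxN⟩) j ∈ center (T j) := mem_center_iff.2 fun y => Subtype.ext (by
        have := key y
        show (y : G) * ((t' : G)⁻¹ * ((e.symm ⟨_, hxN⟩) j : G)) = (t' : G)⁻¹ * ((e.symm ⟨_, hxN⟩) j : G) * y
        calc (y : G) * ((t' : G)⁻¹ * ((e.symm ⟨_, hxN⟩) j : G))
            = (t' : G)⁻¹ * ((t' : G) * y * (t' : G)⁻¹) * ((e.symm ⟨_, hxN⟩) j : G) := by group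
          _ = _ := by rw [← this]; group)
      rcases IsSimpleGroup.eq_bot_or_eq_top_of_normal (center (T j)) inferInstance with h | h
      · rw [h, mem_bot, inv_mul_eq_one] at hz
        exact congrArg Subtype.val hz.symm
      · exact absurd ⟨⟨fun x y => mem_center_iff.1 (h ▸ mem_top y) x⟩⟩ (hnab j)
  have hSperm : ∀ i j, ∃ g : G, g • a = a ∧ (T i).map (MulAut.conj g).toMonoidHom = T j := by
    intro i j
    obtain ⟨g, hg⟩ := hTconj i j
    obtain ⟨x, hx, s, hs, rfl⟩ := hdec g
    refine ⟨s, hs, ?_⟩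
    rw [← hcomp, hσ s i] at hg
    have hxT := (hmemL x).1 (hNL hx) (σ s i)
    rw [hσ, ← hxT, hg]
  have hRcard : ∀ i j, Nat.card (R i) = Nat.card (R j) := by
    suffices h : ∀ i j, Nat.card (R i) ≤ Nat.card (R j) from fun i j => le_antisymm (h i j) (h j i)
    intro i j
    obtain ⟨g, hga, hg⟩ := hSperm i j
    have hmem : ∀ t : T i, g * (t : G) * g⁻¹ ∈ T j := fun t => hg ▸ ⟨t, t.2, rfl⟩
    refine Nat.card_le_card_of_injective (fun t : R i => (⟨⟨_, hmem t⟩, hRmove g hga i j hg t t.2 _ rfl⟩ : R j)) ?_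
    intro u v huv
    have : g * ((u : T i) : G) * g⁻¹ = g * ((v : T i) : G) * g⁻¹ :=
      congrArg (fun w : R j => ((w : T j) : G)) huv
    exact Subtype.ext (Subtype.ext (by simpa using this))
  have hstabcard : Nat.card (stabilizer N a) = Nat.card ((stabilizer N a).comap e.toMonoidHom) :=
    (Nat.card_congr (e.symm.subgroupMap (stabilizer N a)).toEquiv).trans (by
      rw [Subgroup.map_equiv_eq_comap_symm]; rfl)
  by_cases hRtop : R i₀ = ⊤
  · have hsurj : ∀ i, R i = ⊤ := fun i => Subgroup.eq_top_of_card_eq _ (by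
      rw [hRcard i i₀, hRtop, Subgroup.card_top, hcardT i₀ i])
    have hmeetN : ∀ i (t : T i), (t : G) • a = a → t = 1 := by
      intro i t ht
      haveI := hTs i
      let U : Subgroup (T i) := (stabilizer G a).comap (T i).subtype
      have hUn : U.Normal := ⟨fun u hu c => by
        obtain ⟨v, hv, hvc⟩ : c ∈ R i := hsurj i ▸ mem_top c
        show ((c : G) * u * (c : G)⁻¹) • a = a
        have := hπ i (e v) u
        simp only [π, MulEquiv.symm_apply_apply] at this
        have hc : v i = c := hvc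
        rw [hc] at this
        rw [← this, mul_smul, mul_smul, (inv_smul_eq_iff.2 (hv : ((e v : N) : G) • a = a).symm : ((e v : N) : G)⁻¹ • a = a)]
        rw [show (u : G) • a = a from hu]
        exact hv⟩
      rcases IsSimpleGroup.eq_bot_or_eq_top_of_normal U hUn with h | h
      · have : t ∈ U := ht
        rwa [h, mem_bot] at this
      · exfalso
        refine hNS ?_
        rw [← hTsup]
        refine iSup_le fun j => ?_
        obtain ⟨g, hga, hg⟩ := hSperm i j
        rw [← hg]
        rintro _ ⟨y, hy, rfl⟩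
        have hyU : (⟨y, hy⟩ : T i) ∈ U := h ▸ mem_top _
        exact mul_mem (mul_mem hga hyU) (inv_mem hga)
    have hnontriv : ∃ x ∈ N, x ≠ 1 ∧ x • a = a := by
      haveI := (hTs i₀).toNontrivial
      obtain ⟨t, ht⟩ := exists_ne (1 : T i₀)
      obtain ⟨v, hv, hvt⟩ : t ∈ R i₀ := hRtop ▸ mem_top t
      refine ⟨(e v : N), (e v).2, fun h => ht ?_, hv⟩
      have : v = 1 := e.injective (by rw [map_one]; exact Subtype.ext h)
      rw [← hvt, this]; rfl
    by_cases hk2 : k = 2
    · refine ⟨k + (cS - 1), hcN.ext N (hcS.of_surjective_of_ker hψ (hψker hnontriv)), ?_⟩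
      have hS1 : 1 ≤ cS := hcS 1 (.step .base (bot_lt_iff_ne_bot.2 (fun h => by
        obtain ⟨x, -, hx1, hxa⟩ := hnontriv
        have : (⟨x, hxa⟩ : stabilizer G a) ∈ (⊤ : Subgroup (stabilizer G a)) := mem_top _
        rw [h, Subgroup.mem_bot] at this
        exact hx1 (congrArg Subtype.val this))) (by rw [bot_subgroupOf]; infer_instance))
      omega
    haveI := hTs i₀
    have ht9 := nine_le_card (T i₀) (hnab i₀)
    have hsub := subdirect_card_le (T := fun i => T i) hTs hnab (fun i => hcardT i i₀)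
      ((stabilizer N a).comap e.toMonoidHom)
      (fun i x => by
        obtain ⟨v, hv, hvx⟩ : x ∈ R i := hsurj i ▸ mem_top x
        exact ⟨v, hv, hvx⟩)
      (fun v hv i hi => by
        have hveq : v = Pi.mulSingle i (v i) := funext fun j => by
          by_cases hj : j = i
          · subst hj; simp
          · simp [hj, hi j hj]
        have h1 : ((e v : N) : G) = (v i : G) := by
          show φ v = _
          conv_lhs => rw [hveq]
          exact hφsingle i _
        have hvi : v i = 1 := hmeetN i (v i) (h1 ▸ hv)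
        rw [hveq, hvi]; simp)
    rw [← hstabcard, Fintype.card_fin] at hsub
    have hn2 : Nat.card (T i₀) ^ k ≤ n * n := by
      have hpos : 0 < Nat.card (T i₀) ^ k := pow_pos Nat.card_pos k
      have hprod : Nat.card (T i₀) ^ k * Nat.card (T i₀) ^ k =
          n * n * (Nat.card (stabilizer N a) * Nat.card (stabilizer N a)) := by
        rw [← hNcard, hidx]; ring
      have : Nat.card (T i₀) ^ k * Nat.card (T i₀) ^ k ≤ n * n * Nat.card (T i₀) ^ k :=
        hprod ▸ Nat.mul_le_mul_left _ hsub
      exact Nat.le_of_mul_le_mul_right this hpos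
    have hkt := product_arith ht9 (by omega) hn2
    refine finish (Nat.card (T i₀)) (fun i => ⊥) (by omega) hkt (fun i => by rw [index_bot, hcardT i i₀]) ?_
    intro g _ _ i t ht t' ht'
    rw [mem_bot] at ht ⊢
    subst ht
    exact Subtype.ext (by rw [ht']; simp)
  · have hm2 : 2 ≤ (R i₀).index := Subgroup.one_lt_index_of_ne_top hRtop
    have hRidx : ∀ i, (R i).index = (R i₀).index := fun i => by
      have h1 := (R i).card_mul_index
      rw [hRcard i i₀, hcardT i i₀, ← (R i₀).card_mul_index] at h1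
      exact Nat.eq_of_mul_eq_mul_left Nat.card_pos h1
    refine finish (R i₀).index R hm2 ?_ hRidx fun g hga hgL i t ht t' ht' =>
      hRmove g hga i i ((hmemL g).1 hgL i) t ht t' ht'
    refine (mul_le_pow hm2 hk).trans ?_
    have hle : Nat.card (stabilizer N a) ≤ Nat.card (R i₀) ^ k := by
      rw [hstabcard]
      refine (Nat.card_le_card_of_injective
        (fun v : (stabilizer N a).comap e.toMonoidHom => fun i => (⟨(v : ∀ i, T i) i, ⟨_, v.2, rfl⟩⟩ : R i))
        fun u v huv => Subtype.ext (funext fun i => congrArg Subtype.val (congrFun huv i))).trans (le_of_eq ?_)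
      rw [Nat.card_pi, Finset.prod_congr rfl (g := fun _ => Nat.card (R i₀)) fun i _ => hRcard i i₀,
        Finset.prod_const, Finset.card_univ, Fintype.card_fin]
    have h2' : (R i₀).index ^ k * Nat.card (R i₀) ^ k ≤ n * Nat.card (R i₀) ^ k := by
      rw [← mul_pow, mul_comm (R i₀).index, Subgroup.card_mul_index, ← hNcard, hidx]
      exact Nat.mul_le_mul_left n hle
    exact Nat.le_of_mul_le_mul_right h2' (pow_pos Nat.card_pos k)

theorem main : ∀ m, ∀ (G : Type u) [Group G] [Finite G] [MulAction G (Fin m)] [FaithfulSMul G (Fin m)],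
    Bnd G m (Nat.card (orbitRel.Quotient G (Fin m))) := by
  intro m
  induction m using Nat.strong_induction_on with
  | _ m ih =>
    intro G _ _ _ _
    have IHm : IH.{u} m := ih
    let Ω := ULift.{u} (Fin m)
    letI : MulAction G Ω :=
      { smul := fun g x => ⟨g • x.down⟩
        one_smul := fun x => ULift.ext _ _ (one_smul G x.down)
        mul_smul := fun g h x => ULift.ext _ _ (mul_smul g h x.down) }
    haveI : FaithfulSMul G Ω := ⟨fun {g h} hgh => FaithfulSMul.eq_of_smul_eq_smul fun x =>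
      congrArg ULift.down (hgh ⟨x⟩)⟩
    have hΩ : Nat.card Ω = m := by rw [Nat.card_ulift, Nat.card_fin]
    have hcongr : Nat.card (orbitRel.Quotient G Ω) = Nat.card (orbitRel.Quotient G (Fin m)) := by
      refine Nat.card_congr (Quotient.congr Equiv.ulift fun x y => ?_)
      show orbitRel G Ω x y ↔ orbitRel G (Fin m) x.down y.down
      simp only [orbitRel_apply, mem_orbit_iff]
      exact exists_congr fun g => ULift.ext_iff
    rw [← hcongr]
    rcases Nat.lt_or_ge (Nat.card (orbitRel.Quotient G Ω)) 2 with h2 | h2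
    · rcases Nat.eq_zero_or_pos m with rfl | hm
      · haveI : Subsingleton G := ⟨fun g h => FaithfulSMul.eq_of_smul_eq_smul fun x : Fin 0 => x.elim0⟩
        haveI : IsEmpty Ω := ⟨fun x => x.down.elim0⟩
        haveI : IsEmpty (orbitRel.Quotient G Ω) := ⟨fun q => Quotient.inductionOn' q isEmptyElim⟩
        exact ⟨0, CLe.of_subsingleton, by simp⟩
      · haveI : Nonempty Ω := ⟨⟨⟨0, hm⟩⟩⟩
        have hr : Nat.card (orbitRel.Quotient G Ω) = 1 := by have := one_le_orbits G Ω; omega
        rw [hr]
        rcases Nat.lt_or_ge m 2 with hm1 | hm1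
        · haveI : Subsingleton (Fin m) := ⟨fun x y => Fin.ext (by omega)⟩
          haveI : Subsingleton G := ⟨fun g h => FaithfulSMul.eq_of_smul_eq_smul fun x : Fin m => Subsingleton.elim _ _⟩
          exact ⟨0, CLe.of_subsingleton, by omega⟩
        haveI : IsPretransitive G Ω := ⟨fun x y => by
          haveI : Subsingleton (orbitRel.Quotient G Ω) := Finite.card_le_one_iff_subsingleton.1 hr.le
          have h := Quotient.exact' (Subsingleton.elim (Quotient.mk'' y : orbitRel.Quotient G Ω) (Quotient.mk'' x))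
          exact h⟩
        let a : Ω := ⟨⟨0, hm⟩⟩
        by_cases hmax : ∀ H : Subgroup G, stabilizer G a < H → H = ⊤
        · exact primitive a IHm hΩ hm1 hmax
        · push Not at hmax
          obtain ⟨H, hSH, hH⟩ := hmax
          exact imprimitive IHm Ω hΩ a hSH hH
    · exact intransitive IHm Ω hΩ h2

end CfsgLib.CompLength
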